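import Cfsg.Agent.L43.Frame

/-! The centraliser of a central element of order three, with an outer involution allowed. -/

set_option autoImplicit false
set_option linter.unusedSectionVars false
set_option maxRecDepth 100000
set_option synthInstance.maxSize 4000

namespace Cfsg.Agent.O83.Bs

open Subgroup Cfsg.Agent.Local Cfsg.Agent.L43

variable {G : Type*} [Group G] [Finite G]

theorem cj_mul' {g k a : G} : g * k * a * (g * k)⁻¹ = g * (k * a * k⁻¹) * g⁻¹ := by group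

/-- The basic hypothesis. -/
structure Hy (z : G) (Q K : Subgroup G) (φ : G → SL23) : Prop where
  oz : orderOf z = 3
  zQ : z ∈ Q
  exp : ∀ q ∈ Q, q ^ 3 = 1
  com : ∀ p ∈ Q, ∀ q ∈ Q, p * q * p⁻¹ * q⁻¹ ∈ zpowers z
  cen : ∀ g, (∀ q ∈ Q, g * q = q * g) → g ∈ zpowers z
  card : Nat.card Q = 243
  nC' : ∀ g, g * z = z * g → ∀ q ∈ Q, g * q * g⁻¹ ∈ Q
  QK : Q ≤ K
  Kz : ∀ k ∈ K, k * z = z * k
  mul : ∀ x ∈ K, ∀ y ∈ K, φ (x * y) = φ x * φ y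
  ker : ∀ x ∈ K, φ x = 1 ↔ x ∈ Q
  surj : ∀ σ, ∃ x ∈ K, φ x = σ
  out : ∃ w, w * z = z * w ∧ w * w ∈ Q ∧ (∀ k ∈ K, w * k * w⁻¹ * k⁻¹ ∈ Q) ∧
    ∀ g, g * z = z * g → g ∈ K ∨ g * w ∈ K

/-- Scalar action on an eigenspace. -/
def Sc (z : G) (Q : Subgroup G) (t : G) (ε : ZMod 3) (g : G) (δ : ZMod 3) : Prop :=
  ∀ x, Ei z Q t ε x → ∀ q ∈ Q, om z (g * x * g⁻¹) q = δ * om z x q

namespace Hy

variable {z : G} {Q K : Subgroup G} {φ : G → SL23} (h : Hy z Q K φ)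
include h

theorem le (q : G) (hq : q ∈ Q) : q * z = z * q := h.Kz q (h.QK hq)

theorem z3 : z ^ 3 = 1 := h.exp z h.zQ

theorem zle : zpowers z ≤ Q := zpowers_le.mpr h.zQ

theorem zinj {k l : ZMod 3} (e : z ^ k.val = z ^ l.val) : k = l :=
  ZMod.val_injective 3 (pow_injOn_Iio_orderOf (k.val_lt.trans_eq h.oz.symm) (l.val_lt.trans_eq h.oz.symm) e)

theorem zex {e : G} (he : e ∈ zpowers z) : ∃ k : ZMod 3, e = z ^ k.val := by
  rcases mem_zpowers_three h.oz he with rfl | rfl | rfl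
  exacts [⟨0, (pow_zero _).symm⟩, ⟨1, (pow_one _).symm⟩,
    ⟨2, inv_eq_of_mul_eq_one_left (by rw [← h.z3]; exact (pow_succ _ 2).symm)⟩]

variable {p p' q q' g : G}

theorem spec (hp : p ∈ Q) (hq : q ∈ Q) : p * q * p⁻¹ * q⁻¹ = z ^ (om z p q).val :=
  Classical.epsilon_spec (h.zex (h.com p hp q hq))

theorem om_eq (hp : p ∈ Q) (hq : q ∈ Q) {k : ZMod 3} (e : p * q * p⁻¹ * q⁻¹ = z ^ k.val) : om z p q = k :=
  h.zinj ((h.spec hp hq).symm.trans e)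

theorem omL (hp : p ∈ Q) (hp' : p' ∈ Q) (hq : q ∈ Q) : om z (p * p') q = om z p q + om z p' q :=
  h.om_eq (mul_mem hp hp') hq (by
    rw [add_comm, Char.pow_val_add h.z3, ← h.spec hp hq, ← cj_of_cm (Commute.pow_right (h.le p hp) _).eq,
      ← h.spec hp' hq]
    group)

theorem anti (hp : p ∈ Q) (hq : q ∈ Q) : om z q p = -om z p q := by
  refine eq_neg_of_add_eq_zero_left (h.zinj ?_)
  rw [Char.pow_val_add h.z3, ← h.spec hp hq, ← h.spec hq hp, ZMod.val_zero]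
  group

theorem omR (hp : p ∈ Q) (hq : q ∈ Q) (hq' : q' ∈ Q) : om z p (q * q') = om z p q + om z p q' := by
  rw [h.anti (mul_mem hq hq') hp, h.omL hq hq' hp, h.anti hq hp, h.anti hq' hp, neg_add]

theorem om0 (hp : p ∈ Q) (hq : q ∈ Q) : om z p q = 0 ↔ p * q = q * p := by
  refine ⟨fun e => ?_, fun e => h.om_eq hp hq (by rw [e]; simp)⟩
  have := h.spec hp hq
  rwa [e, ZMod.val_zero, pow_zero, mul_inv_eq_one, mul_inv_eq_iff_eq_mul] at this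

theorem om1 (hp : p ∈ Q) (hq : q ∈ Q) : om z p q = 1 ↔ p * q * p⁻¹ = z * q := by
  refine ⟨fun e => ?_, fun e => h.om_eq hp hq (by rw [e]; simp [ZMod.val_one])⟩
  have := h.spec hp hq
  rwa [e, ZMod.val_one, pow_one, mul_inv_eq_iff_eq_mul] at this

theorem omS (hp : p ∈ Q) : om z p p = 0 := (h.om0 hp hp).mpr rfl

theorem omZ (hp : p ∈ zpowers z) (hq : q ∈ Q) : om z p q = 0 :=
  (h.om0 (h.zle hp) hq).mpr (cm_zp (h.le q hq) hp).symm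

theorem invL (hp : p ∈ Q) (hq : q ∈ Q) : om z p⁻¹ q = -om z p q := by
  rw [eq_neg_iff_add_eq_zero, ← h.omL (inv_mem hp) hp hq, inv_mul_cancel, h.omZ (one_mem _) hq]

theorem invR (hp : p ∈ Q) (hq : q ∈ Q) : om z p q⁻¹ = -om z p q := by
  rw [h.anti (inv_mem hq) hp, h.invL hq hp, h.anti hq hp]

theorem powL (hp : p ∈ Q) (hq : q ∈ Q) (n : ℕ) : om z (p ^ n) q = n * om z p q := by
  induction n with
  | zero => simpa using h.omZ (one_mem _) hq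
  | succ n ih => rw [pow_succ, h.omL (pow_mem hp n) hp hq, ih]; push_cast; ring

theorem powR (hp : p ∈ Q) (hq : q ∈ Q) (n : ℕ) : om z p (q ^ n) = n * om z p q := by
  rw [h.anti (pow_mem hq n) hp, h.powL hq hp, h.anti hq hp, mul_neg]

theorem memZ (hp : p ∈ Q) : p ∈ zpowers z ↔ ∀ q ∈ Q, om z p q = 0 :=
  ⟨fun e _ hq => h.omZ e hq, fun e => h.cen p fun q hq => (h.om0 hp hq).mp (e q hq)⟩

theorem nC (hg : g * z = z * g) (hq : q ∈ Q) : g * q * g⁻¹ ∈ Q := h.nC' g hg q hq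

theorem nC2 (hg : g * z = z * g) (hq : q ∈ Q) : g⁻¹ * q * g ∈ Q := by simpa using h.nC (cm_inv hg) hq

theorem phi_one : φ 1 = 1 := (h.ker 1 (one_mem _)).mpr (one_mem _)

theorem phi_inv (hg : g ∈ K) : φ g⁻¹ = (φ g)⁻¹ :=
  eq_inv_of_mul_eq_one_left (by rw [← h.mul _ (inv_mem hg) _ hg, inv_mul_cancel, h.phi_one])

theorem phi_pow (hg : g ∈ K) (n : ℕ) : φ (g ^ n) = φ g ^ n := by
  induction n with
  | zero => simpa using h.phi_one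
  | succ n ih => rw [pow_succ, h.mul _ (pow_mem hg n) _ hg, ih, pow_succ]

omit h in
theorem cjK (hg : g ∈ K) (hp : p ∈ K) : g * p * g⁻¹ ∈ K := mul_mem (mul_mem hg hp) (inv_mem hg)

theorem phi_cj (hg : g ∈ K) (hp : p ∈ K) : φ (g * p * g⁻¹) = φ g * φ p * (φ g)⁻¹ := by
  rw [h.mul _ (mul_mem hg hp) _ (inv_mem hg), h.mul _ hg _ hp, h.phi_inv hg]

theorem phi_eq (hg : g ∈ K) (hp : p ∈ K) (e : φ g = φ p) : g * p⁻¹ ∈ Q :=
  (h.ker _ (mul_mem hg (inv_mem hp))).mp (by rw [h.mul _ hg _ (inv_mem hp), h.phi_inv hp, e, mul_inv_cancel])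

theorem sqK (hg : g * z = z * g) : g * g ∈ K := by
  obtain ⟨w, -, h1, h2, h3⟩ := h.out
  rcases h3 g hg with e | e
  · exact mul_mem e e
  have h4 := h.QK h1
  convert mul_mem (mul_mem (mul_mem e (inv_mem h4)) (mul_mem (h.QK (h2 _ e)) e)) (mul_mem h4 (inv_mem h4)) using 1
  group

theorem memK (hg : g * z = z * g) (e : g ^ 3 = 1) : g ∈ K := by
  have := h.sqK hg
  rwa [eq_inv_of_mul_eq_one_left ((pow_three' g).symm.trans e), inv_mem_iff] at this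

theorem omC (hg : g * z = z * g) (hp : p ∈ Q) (hq : q ∈ Q) : om z (g * p * g⁻¹) (g * q * g⁻¹) = om z p q :=
  h.om_eq (h.nC hg hp) (h.nC hg hq) (by
    rw [← cj_of_cm (Commute.pow_right hg _).eq, ← h.spec hp hq]; group)

theorem omC' (hg : g * z = z * g) (hp : p ∈ Q) (hq : q ∈ Q) : om z (g * p * g⁻¹) q = om z p (g⁻¹ * q * g) := by
  rw [← h.omC hg hp (by simpa using h.nC (cm_inv hg) hq)]
  congr 1
  group

theorem omQ (hg : g ∈ Q) (hp : p ∈ Q) (hq : q ∈ Q) : om z (g * p * g⁻¹) q = om z p q := by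
  rw [h.omL (mul_mem hg hp) (inv_mem hg) hq, h.omL hg hp hq, h.invL hg hq]
  ring

theorem basis4 {a b c d x : G} (ha : a ∈ Q) (hb : b ∈ Q) (hc : c ∈ Q) (hd : d ∈ Q) (ab : om z a b ≠ 0)
    (cd : om z c d ≠ 0) (ac : om z a c = 0) (ad : om z a d = 0) (bc : om z b c = 0)
    (hx : x ∈ Q) (xa : om z x a = 0) (xb : om z x b = 0) (xc : om z x c = 0) (xd : om z x d = 0) :
    x ∈ zpowers z := by
  have m : ∀ {u v}, u ∈ Q → v ∈ Q → (u ∈ centralizer {v} ↔ om z u v = 0) := fun hu hv =>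
    mem_centralizer_singleton_iff.trans (h.om0 hu hv).symm
  have ba : om z b a ≠ 0 := by rwa [h.anti ha hb, neg_ne_zero]
  have dc : om z d c ≠ 0 := by rwa [h.anti hc hd, neg_ne_zero]
  have h1 := third (H := Q ⊓ centralizer {a}) h.card le_rfl inf_le_left hb fun e => ba ((m hb ha).mp e.2)
  have h2 := third (H := Q ⊓ centralizer {a} ⊓ centralizer {c}) h.card inf_le_left inf_le_left
    ⟨hd, (m hd ha).mpr (by rw [h.anti ha hd, ad, neg_zero])⟩ fun e => dc ((m hd hc).mp e.2)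
  have h3 := third (H := Q ⊓ centralizer {a} ⊓ centralizer {c} ⊓ centralizer {b}) h.card
    (inf_le_left.trans inf_le_left) inf_le_left ⟨⟨ha, (m ha ha).mpr (h.omS ha)⟩, (m ha hc).mpr ac⟩
    fun e => ab ((m ha hb).mp e.2)
  have h4 := third (H := Q ⊓ centralizer {a} ⊓ centralizer {c} ⊓ centralizer {b} ⊓ centralizer {d}) h.card
    (inf_le_left.trans (inf_le_left.trans inf_le_left)) inf_le_left
    ⟨⟨⟨hc, (m hc ha).mpr (by rw [h.anti ha hc, ac, neg_zero])⟩, (m hc hc).mpr (h.omS hc)⟩,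
      (m hc hb).mpr (by rw [h.anti hb hc, bc, neg_zero])⟩ fun e => cd ((m hc hd).mp e.2)
  have h5 : ∀ {v}, v ∈ Q → zpowers z ≤ centralizer {v} := fun hv u hu => (m (h.zle hu) hv).mpr (h.omZ hu hv)
  refine (eq_of_le_of_card_ge (le_inf (le_inf (le_inf (le_inf h.zle (h5 ha)) (h5 hc)) (h5 hb)) (h5 hd)) ?_).ge
    ⟨⟨⟨⟨hx, (m hx ha).mpr xa⟩, (m hx hc).mpr xc⟩, (m hx hb).mpr xb⟩, (m hx hd).mpr xd⟩
  rw [Nat.card_zpowers, h.oz]
  have := h.card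
  omega

theorem kill {a b x : G} (ha : a ∈ Q) (hb : b ∈ Q) (hx : x ∈ Q) (ab : om z a b ≠ 0) :
    ∃ k < 3, om z (x * a ^ k) b = 0 := by
  obtain ⟨k, hk, e⟩ := (by decide : ∀ u v : ZMod 3, v ≠ 0 → ∃ k < 3, u + (k : ℕ) * v = 0) (om z x b) _ ab
  exact ⟨k, hk, by rw [h.omL hx (pow_mem ha k) hb, h.powL ha hb, e]⟩

theorem zeq (hp : p ∈ Q) (hq : q ∈ Q) (e : ∀ r ∈ Q, om z p r = om z q r) : p * q⁻¹ ∈ zpowers z :=
  (h.memZ (mul_mem hp (inv_mem hq))).mpr fun r hr => by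
    rw [h.omL hp (inv_mem hq) hr, h.invL hq hr, e r hr, add_neg_cancel]

theorem cm4 (hg : g * z = z * g) (g4 : g ^ 4 = 1) (hq : q ∈ Q) (e : ∀ r ∈ Q, om z (g * q * g⁻¹) r = om z q r) :
    g * q = q * g := by
  have h1 := h.zeq (h.nC hg hq) hq e
  have h2 : ∀ n : ℕ, g ^ n * q * (g ^ n)⁻¹ = (g * q * g⁻¹ * q⁻¹) ^ n * q := fun n => by
    induction n with
    | zero => simp
    | succ n ih =>
      rw [pow_succ', cj_mul', ih, ← conj_mul, cj_of_cm (cm_zp hg (pow_mem h1 n)), pow_succ]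
      group
  have h3 := h2 4
  rw [g4, pow_succ, h.exp _ (h.zle h1)] at h3
  exact cm_of_cj (by simpa using h3.symm)

theorem index3 {X : Subgroup G} (hX : X ≤ Q) (hq : q ∈ Q) : Nat.card X ≤ 3 * Nat.card ↥(X ⊓ centralizer {q}) := by
  let f : X →* Multiplicative (ZMod 3) := MonoidHom.mk' (fun x => Multiplicative.ofAdd (om z x q))
    fun a b => congrArg _ (h.omL (hX a.2) (hX b.2) hq)
  have h1 := f.ker.card_mul_index
  have h2 : f.ker = (X ⊓ centralizer {q}).subgroupOf X := by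
    ext x
    simp only [mem_subgroupOf, mem_inf, x.2, true_and, mem_centralizer_singleton_iff, ← h.om0 (hX x.2) hq]
    rfl
  rw [index_ker, h2, Nat.card_congr (subgroupOfEquivOfLe inf_le_left).toEquiv] at h1
  have h3 := card_le_card_group f.range
  rw [show Nat.card (Multiplicative (ZMod 3)) = 3 by simp] at h3
  nlinarith

theorem exom (hp : p ∈ Q) (p1 : p ∉ zpowers z) : ∃ b ∈ Q, om z p b = 1 := by
  obtain ⟨q, hq, e⟩ : ∃ q ∈ Q, om z p q ≠ 0 := by simpa using (h.memZ hp).not.mp p1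
  rcases (by decide : ∀ e : ZMod 3, e ≠ 0 → e = 1 ∨ -e = 1) _ e with e | e
  exacts [⟨q, hq, e⟩, ⟨_, inv_mem hq, (h.invR hp hq).trans e⟩]

theorem exists_t : ∃ t ∈ K, φ t = -1 ∧ t * t = 1 := by
  obtain ⟨x, hx, e⟩ := h.surj (-1)
  refine ⟨x ^ 3, pow_mem hx 3, by rw [h.phi_pow hx, e]; decide, ?_⟩
  rw [← pow_add, show 3 + 3 = 2 * 3 from rfl, pow_mul]
  exact h.exp _ ((h.ker _ (pow_mem hx 2)).mp (by rw [h.phi_pow hx, e]; decide))

end Hy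

/-- The hypothesis together with an involution over the centre. -/
structure Ht (z : G) (Q K : Subgroup G) (φ : G → SL23) (t : G) : Prop extends Hy z Q K φ where
  tK : t ∈ K
  tφ : φ t = -1
  tt : t * t = 1

namespace Ht

variable {z : G} {Q K : Subgroup G} {φ : G → SL23} {t : G} (h : Ht z Q K φ t) {a b c x g : G} {ε δ : ZMod 3}
include h

theorem tz : t * z = z * t := h.Kz t h.tK

theorem ti : t⁻¹ = t := inv_eq_of_mul_eq_one_right h.tt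

theorem t4 : t ^ 4 = 1 := by rw [show 4 = 2 * 2 from rfl, pow_mul, pow_two t, h.tt, one_pow]

theorem Emul (ha : Ei z Q t ε a) (hb : Ei z Q t ε b) : Ei z Q t ε (a * b) :=
  ⟨mul_mem ha.1 hb.1, fun q hq => by
    rw [← conj_mul, h.omL (h.nC h.tz ha.1) (h.nC h.tz hb.1) hq, ha.2 q hq, hb.2 q hq, h.omL ha.1 hb.1 hq, mul_add]⟩

theorem Epow (ha : Ei z Q t ε a) (n : ℕ) : Ei z Q t ε (a ^ n) :=
  ⟨pow_mem ha.1 n, fun q hq => by
    rw [← conj_pow, h.powL (h.nC h.tz ha.1) hq, ha.2 q hq, h.powL ha.1 hq, mul_left_comm]⟩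

theorem Einv (ha : Ei z Q t ε a) : Ei z Q t ε a⁻¹ :=
  ⟨inv_mem ha.1, fun q hq => by rw [← conj_inv, h.invL (h.nC h.tz ha.1) hq, ha.2 q hq, h.invL ha.1 hq, mul_neg]⟩

theorem orth (he : ε ≠ 0) (ha : Ei z Q t ε a) (hc : Ei z Q t (-ε) c) : om z a c = 0 := by
  have h1 := h.omC h.tz ha.1 hc.1
  rw [ha.2 _ (h.nC h.tz hc.1), h.anti (h.nC h.tz hc.1) ha.1, hc.2 _ ha.1, h.anti ha.1 hc.1] at h1
  exact (by decide : ∀ e x : ZMod 3, e ≠ 0 → e * -(-e * -x) = x → x = 0) _ _ he h1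

theorem split (ha : a ∈ Q) : Ei z Q t 1 (a * (t * a * t⁻¹)) ∧ Ei z Q t (-1) (a * (t * a * t⁻¹)⁻¹) := by
  have h1 := h.nC h.tz ha
  have h2 : t * (t * a * t⁻¹) * t⁻¹ = a := by
    rw [show t * (t * a * t⁻¹) * t⁻¹ = t * t * a * (t * t)⁻¹ by group, h.tt]; group
  refine ⟨⟨mul_mem ha h1, fun q hq => ?_⟩, mul_mem ha (inv_mem h1), fun q hq => ?_⟩
  · rw [← conj_mul, h2, h.omL h1 ha hq, h.omL ha h1 hq]; ring
  · rw [← conj_mul, ← conj_inv (b := t) (a := t * a * t⁻¹), h2, h.omL h1 (inv_mem ha) hq,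
      h.omL ha (inv_mem h1) hq, h.invL ha hq, h.invL h1 hq]; ring

theorem partner (he : ε ≠ 0) (ha : Ei z Q t ε a) (a1 : a ∉ zpowers z) : ∃ b, Ei z Q t ε b ∧ om z a b ≠ 0 := by
  obtain ⟨q, hq, e⟩ : ∃ q ∈ Q, om z a q ≠ 0 := by simpa using (h.memZ ha.1).not.mp a1
  obtain ⟨h1, h2⟩ := h.split hq
  have h3 := h.nC h.tz hq
  have h4 := h.omR ha.1 hq h3
  have h5 := (h.omR ha.1 hq (inv_mem h3)).trans (congrArg _ (h.invR ha.1 h3))
  have h6 := (by decide : ∀ x y : ZMod 3, x + y = 0 → x + -y = 0 → x = 0) (om z a q) (om z a (t * q * t⁻¹))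
  rcases (by decide : ∀ e : ZMod 3, e ≠ 0 → e = 1 ∨ e = -1) ε he with rfl | rfl
  · exact ⟨_, h1, fun e' => e (h6 (h4 ▸ e') (h5 ▸ h.orth he ha h2))⟩
  · exact ⟨_, h2, fun e' => e (h6 (h4 ▸ h.orth he ha (by rwa [neg_neg])) (h5 ▸ e'))⟩

theorem two (he : ε ≠ 0) (ha : Ei z Q t ε a) (a1 : a ∉ zpowers z) (hc : Ei z Q t (-ε) c) (c1 : c ∉ zpowers z)
    (hx : Ei z Q t ε x) (e : om z x a = 0) : ∃ k < 3, x * a ^ k ∈ zpowers z := by
  obtain ⟨b, hb, ab⟩ := h.partner he ha a1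
  obtain ⟨d, hd, cd⟩ := h.partner (neg_ne_zero.mpr he) hc c1
  obtain ⟨k, hk, e1⟩ := h.kill ha.1 hb.1 hx.1 ab
  have h1 := h.Emul hx (h.Epow ha k)
  exact ⟨k, hk, h.basis4 ha.1 hb.1 hc.1 hd.1 ab cd (h.orth he ha hc) (h.orth he ha hd) (h.orth he hb hc)
    h1.1 (by rw [h.omL hx.1 (pow_mem ha.1 k) ha.1, h.powL ha.1 ha.1, e, h.omS ha.1]; ring) e1
    (h.orth he h1 hc) (h.orth he h1 hd)⟩

theorem exI : ∃ c, Ei z Q t (-1) c ∧ c ∉ zpowers z := by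
  by_contra! hn
  have h1 := (h.ker t h.tK).mpr (h.zle (h.cen t fun q hq => h.cm4 h.tz h.t4 hq fun r hr => ?_))
  · rw [h.tφ] at h1
    exact absurd h1 (by decide)
  have h2 := h.omZ (hn _ (h.split hq).2) hr
  rw [h.omL hq (inv_mem (h.nC h.tz hq)) hr, h.invL (h.nC h.tz hq) hr] at h2
  linear_combination -h2

theorem Econj (hg : g * z = z * g) (h1 : t * g * (g * t)⁻¹ ∈ Q) (ha : Ei z Q t ε a) : Ei z Q t ε (g * a * g⁻¹) :=
  ⟨h.nC hg ha.1, fun q hq => by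
    rw [show t * (g * a * g⁻¹) * t⁻¹ = t * g * (g * t)⁻¹ * (g * (t * a * t⁻¹) * g⁻¹) * (t * g * (g * t)⁻¹)⁻¹ by group,
      h.omQ h1 (h.nC hg (h.nC h.tz ha.1)) hq, h.omC' hg (h.nC h.tz ha.1) hq, ha.2 _ (h.nC2 hg hq),
      h.omC' hg ha.1 hq]⟩

theorem tK' (hg : g ∈ K) : t * g * (g * t)⁻¹ ∈ Q :=
  h.phi_eq (mul_mem h.tK hg) (mul_mem hg h.tK) (by rw [h.mul _ h.tK _ hg, h.mul _ hg _ h.tK, h.tφ]; simp)

theorem EK (hg : g ∈ K) (ha : Ei z Q t ε a) : Ei z Q t ε (g * a * g⁻¹) := h.Econj (h.Kz g hg) (h.tK' hg) ha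

theorem EZ (ha : a ∈ zpowers z) : Ei z Q t ε a :=
  ⟨h.zle ha, fun q hq => by rw [cj_of_cm (cm_zp h.tz ha), h.omZ ha hq, mul_zero]⟩

theorem omT (hg : g ∈ K) (e : φ g = -1) (ha : Ei z Q t ε a) {q : G} (hq : q ∈ Q) :
    om z (g * a * g⁻¹) q = ε * om z a q := by
  rw [show g * a * g⁻¹ = g * t⁻¹ * (t * a * t⁻¹) * (g * t⁻¹)⁻¹ by group,
    h.omQ (h.phi_eq hg h.tK (e.trans h.tφ.symm)) (h.nC h.tz ha.1) hq, ha.2 q hq]

theorem Sc1 (hg : g ∈ K) (e : φ g = 1 ∨ φ g = -1) : Sc z Q t 1 g 1 := fun x hx q hq =>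
  e.elim (fun e => by rw [h.omQ ((h.ker g hg).mp e) hx.1 hq, one_mul]) fun e => h.omT hg e hx hq

theorem Scmul {g' : G} {δ' : ZMod 3} (hg' : g' ∈ K) (h1 : Sc z Q t ε g δ) (h2 : Sc z Q t ε g' δ') :
    Sc z Q t ε (g * g') (δ * δ') := fun x hx q hq => by
  rw [cj_mul', h1 _ (h.EK hg' hx) q hq, h2 x hx q hq, mul_assoc]

theorem Scconj {s : G} (hs : s ∈ K) (hg : g ∈ K) (h1 : Sc z Q t ε g δ) :
    Sc z Q t ε (s * g * s⁻¹) δ := fun x hx q hq => by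
  have h2 := h.EK (inv_mem hs) hx
  have sz := h.Kz s hs
  rw [show s * g * s⁻¹ * x * (s * g * s⁻¹)⁻¹ = s * (g * (s⁻¹ * x * s⁻¹⁻¹) * g⁻¹) * s⁻¹ by group,
    h.omC' sz (h.nC (h.Kz g hg) h2.1) hq, h1 _ h2 _ (h.nC2 sz hq), ← h.omC' sz h2.1 hq]
  congr 2
  group

theorem dich (he : ε ≠ 0) (hc : Ei z Q t (-ε) c) (c1 : c ∉ zpowers z) (hg : g * z = z * g)
    (hE : ∀ x, Ei z Q t ε x → Ei z Q t ε (g * x * g⁻¹)) (e : Sc z Q t ε (g * g) 1) :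
    Sc z Q t ε g 1 ∨ Sc z Q t ε g (-1) := by
  by_contra hn
  simp only [Sc, not_or, not_forall] at hn
  obtain ⟨⟨x, hx, q, hq, e1⟩, y, hy, r, hr, e2⟩ := hn
  have h0 : ∀ x, Ei z Q t ε x → ∀ q ∈ Q, om z (g * (g * x * g⁻¹) * g⁻¹) q = om z x q := fun x hx q hq => by
    have := e x hx q hq
    rwa [one_mul, cj_mul'] at this
  have hx' := hE x hx
  have hy' := hE y hy
  have h1 := h.Emul hx (h.Einv hx')
  have h2 := h.Emul hy hy'
  have h3 : ∀ q ∈ Q, om z (g * (x * (g * x * g⁻¹)⁻¹) * g⁻¹) q = -om z (x * (g * x * g⁻¹)⁻¹) q := fun q hq => by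
    rw [← conj_mul, ← conj_inv (b := g) (a := g * x * g⁻¹), h.omL hx'.1 (inv_mem (h.nC hg hx'.1)) hq,
      h.invL (h.nC hg hx'.1) hq, h0 x hx q hq, h.omL hx.1 (inv_mem hx'.1) hq, h.invL hx'.1 hq]; ring
  have h4 : ∀ q ∈ Q, om z (g * (y * (g * y * g⁻¹)) * g⁻¹) q = om z (y * (g * y * g⁻¹)) q := fun q hq => by
    rw [← conj_mul, h.omL hy'.1 (h.nC hg hy'.1) hq, h0 y hy q hq, h.omL hy.1 hy'.1 hq, add_comm]
  have h5 : x * (g * x * g⁻¹)⁻¹ ∉ zpowers z := fun k => e1 (by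
    have := h.omZ k hq
    rw [h.omL hx.1 (inv_mem hx'.1) hq, h.invL hx'.1 hq] at this
    linear_combination -this)
  have h6 : y * (g * y * g⁻¹) ∉ zpowers z := fun k => e2 (by
    have := h.omZ k hr
    rw [h.omL hy.1 hy'.1 hr] at this
    linear_combination this)
  generalize x * (g * x * g⁻¹)⁻¹ = u at h1 h3 h5
  generalize y * (g * y * g⁻¹) = v at h2 h4 h6
  obtain ⟨k, -, h7⟩ := h.two he h2 h6 hc c1 h1 (z3_half (by
    have := h.omC hg h1.1 h2.1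
    rw [h3 _ (h.nC hg h2.1), h.anti (h.nC hg h2.1) h1.1, h4 _ h1.1, h.anti h1.1 h2.1, neg_neg] at this
    exact this.symm))
  refine h5 ((h.memZ h1.1).mpr fun q hq => z3_half ?_)
  have h8 := h.omZ h7 hq
  have h9 := h.omZ (by rwa [cj_of_cm (cm_zp hg h7)] : g * (u * v ^ k) * g⁻¹ ∈ _) hq
  rw [← conj_mul, ← conj_pow, h.omL (h.nC hg h1.1) (pow_mem (h.nC hg h2.1) k) hq, h.powL (h.nC hg h2.1) hq,
    h3 q hq, h4 q hq] at h9
  rw [h.omL h1.1 (pow_mem h2.1 k) hq, h.powL h2.1 hq] at h8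
  linear_combination h8 - h9

theorem E1cm (ha : Ei z Q t 1 a) : t * a = a * t :=
  h.cm4 h.tz h.t4 ha.1 fun r hr => (ha.2 r hr).trans (one_mul _)

omit h in
theorem cmE1 (ha : a ∈ Q) (e : t * a = a * t) : Ei z Q t 1 a := ⟨ha, fun q _ => by rw [cj_of_cm e, one_mul]⟩

theorem invE (hc : c ∈ Q) (e : t * c * t⁻¹ = c⁻¹) : Ei z Q t (-1) c :=
  ⟨hc, fun q hq => by rw [e, h.invL hc hq, neg_one_mul]⟩

theorem cm12 (hc : Ei z Q t (-1) c) (ha : Ei z Q t 1 a) : c * a = a * c :=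
  (h.om0 hc.1 ha.1).mp (h.orth (by decide) hc (by rwa [neg_neg]))

theorem dec (hx : x ∈ Q) : ∃ c ∈ Q, ∃ a ∈ Q, t * c * t⁻¹ = c⁻¹ ∧ t * a = a * t ∧ x = c * a := by
  have h1 := h.nC h.tz hx
  have h2 : t * (t * x * t⁻¹) * t⁻¹ = x := by rw [← cj_mul', h.tt]; group
  have h3 := h.omC h.tz hx h1
  rw [h2, h.anti hx h1] at h3
  have h4 : Commute x (t * x * t⁻¹) := (h.om0 hx h1).mp (z3_half h3.symm)
  refine ⟨x⁻¹ * (t * x * t⁻¹), mul_mem (inv_mem hx) h1, (t * x * t⁻¹)⁻¹ * x⁻¹, mul_mem (inv_mem h1) (inv_mem hx),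
    ?_, cm_of_cj ?_, ?_⟩
  · rw [← conj_mul, h2]; group
  · rw [← conj_mul, ← conj_inv (b := t) (a := t * x * t⁻¹), h2, ← conj_inv]
    exact h4.inv_inv.eq
  · rw [mul_assoc, mul_inv_cancel_left, ← mul_inv_rev, eq_inv_iff_mul_eq_one, ← mul_assoc, ← pow_three', h.exp x hx]

theorem sep {c' a' : G} (hc : Ei z Q t (-1) c) (hc' : Ei z Q t (-1) c') (ha : Ei z Q t 1 a) (ha' : Ei z Q t 1 a')
    (e : c * a = c' * a') {q : G} (hq : q ∈ Q) : om z c q = om z c' q ∧ om z a q = om z a' q := by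
  have h1 := (h.omL hc.1 ha.1 hq).symm.trans (e ▸ h.omL hc'.1 ha'.1 hq)
  have h2 : om z (t * (c * a) * t⁻¹) q = om z (t * (c' * a') * t⁻¹) q := by rw [e]
  rw [← conj_mul, ← conj_mul, h.omL (h.nC h.tz hc.1) (h.nC h.tz ha.1) hq, h.omL (h.nC h.tz hc'.1) (h.nC h.tz ha'.1) hq,
    hc.2 q hq, hc'.2 q hq, ha.2 q hq, ha'.2 q hq] at h2
  exact (by decide : ∀ x y u v : ZMod 3, x + u = y + v → -1 * x + 1 * u = -1 * y + 1 * v → x = y ∧ u = v)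
    _ _ _ _ h1 h2

theorem cover (hg : g ∈ K) : ∃ k ∈ K, t * k = k * t ∧ φ k = φ g := by
  have h1 : t * (g * t * g⁻¹) ∈ Q := by
    convert h.tK' hg using 1
    rw [mul_inv_rev, h.ti]; group
  have h2 := h.exp _ h1
  refine ⟨(t * (g * t * g⁻¹))⁻¹ * g, mul_mem (inv_mem (h.QK h1)) hg, (cm_of_cj ?_).symm, by
    rw [h.mul _ (inv_mem (h.QK h1)) _ hg, (h.ker _ (inv_mem (h.QK h1))).mpr (inv_mem h1), one_mul]⟩
  have h3 : g * t * g⁻¹ * (g * t * g⁻¹) = 1 := by rw [conj_mul, h.tt]; group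
  rw [cj_mul']
  generalize g * t * g⁻¹ = u at h2 h3
  rw [inv_inv, mul_inv_rev, inv_eq_of_mul_eq_one_right h3, h.ti]
  exact (eq_inv_of_mul_eq_one_right (by rw [← h2, pow_three]; group)).trans h.ti

end Ht

/-- The `2`-elements commuting with `t`. -/
def E8 (K : Subgroup G) (t g : G) : Prop := g ∈ K ∧ t * g = g * t ∧ g ^ 4 = 1

/-- The full hypothesis. -/
structure Hf (z : G) (Q K : Subgroup G) (φ : G → SL23) (t : G) : Prop extends Ht z Q K φ t where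
  ex1 : ∃ a, Ei z Q t 1 a ∧ a ∉ zpowers z

namespace Hf

variable {z : G} {Q K : Subgroup G} {φ : G → SL23} {t : G} (h : Hf z Q K φ t) {a b c x g k : G} {ε δ : ZMod 3}
include h

theorem exE (he : ε ≠ 0) : ∃ a, Ei z Q t ε a ∧ a ∉ zpowers z := by
  rcases (by decide : ∀ e : ZMod 3, e ≠ 0 → e = 1 ∨ e = -1) ε he with rfl | rfl
  exacts [h.ex1, h.exI]

theorem two' (he : ε ≠ 0) (ha : Ei z Q t ε a) (a1 : a ∉ zpowers z) (hx : Ei z Q t ε x) (e : om z x a = 0) :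
    ∃ k < 3, x * a ^ k ∈ zpowers z :=
  let ⟨_, hc, c1⟩ := h.exE (neg_ne_zero.mpr he)
  h.two he ha a1 hc c1 hx e

theorem fix (hg : g ∈ K) (e : φ g ^ 4 = 1) : Sc z Q t 1 g 1 := by
  obtain ⟨a, ha, a1⟩ := h.ex1
  obtain ⟨c, hc, c1⟩ := h.exI
  obtain ⟨σ, e1⟩ := (by decide : ∃ σ : SL23, ∀ τ : SL23, τ ^ 4 = 1 → (τ = 1 ∨ τ = -1) ∨ τ * τ = -1 ∧
    (τ * (σ * τ * σ⁻¹) * (σ⁻¹ * τ * σ⁻¹⁻¹) = 1 ∨ τ * (σ * τ * σ⁻¹) * (σ⁻¹ * τ * σ⁻¹⁻¹) = -1))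
  obtain ⟨s, hs, rfl⟩ := h.surj σ
  rcases e1 _ e with e | ⟨e, e'⟩
  · exact h.Sc1 hg e
  refine (h.dich one_ne_zero hc c1 (h.Kz g hg) (fun _ => h.EK hg) (h.Sc1 (mul_mem hg hg)
    (.inr (by rw [h.mul _ hg _ hg, e])))).resolve_right fun h1 => a1 ((h.memZ ha.1).mpr fun q hq => z3_half ?_)
  have c1 := Hy.cjK hs hg
  have c2 := Hy.cjK (inv_mem hs) hg
  have h2 := h.Scmul c2 (h.Scmul c1 h1 (h.Scconj hs hg h1)) (h.Scconj (inv_mem hs) hg h1) a ha q hq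
  rw [h.Sc1 (mul_mem (mul_mem hg c1) c2) (by
    rwa [h.mul _ (mul_mem hg c1) _ c2, h.mul _ hg _ c1, h.phi_cj hs hg, h.phi_cj (inv_mem hs) hg, h.phi_inv hs])
    a ha q hq] at h2
  linear_combination h2

theorem e8phi (hg : E8 K t g) : φ g ^ 4 = 1 := by rw [← h.phi_pow hg.1, hg.2.2, h.phi_one]

theorem e8cm (hg : E8 K t g) (ha : Ei z Q t 1 a) : g * a = a * g :=
  h.cm4 (h.Kz g hg.1) hg.2.2 ha.1 fun r hr => (h.fix hg.1 (h.e8phi hg) a ha r hr).trans (one_mul _)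

theorem e8inj (hg : E8 K t g) (hk : E8 K t k) (e : φ g = φ k) : g = k := by
  have h1 := h.phi_eq hg.1 hk.1 e
  have h2 : Commute (g * k⁻¹) k := (h.e8cm hk (Ht.cmE1 h1 (cm_mul hg.2.1.symm (cm_inv hk.2.1.symm)).symm)).symm
  have h3 := h2.mul_pow 4
  rw [inv_mul_cancel_right, hg.2.2, hk.2.2, mul_one, pow_succ, h.exp _ h1, one_mul] at h3
  exact mul_inv_eq_one.mp h3.symm

omit h in
theorem e8inv (hg : E8 K t g) : E8 K t g⁻¹ :=
  ⟨inv_mem hg.1, (cm_inv hg.2.1.symm).symm, by rw [inv_pow, hg.2.2, inv_one]⟩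

omit h in
theorem e8cj' (hk : k * g * k⁻¹ ∈ K) (e : t * k = k * t) (hg : E8 K t g) : E8 K t (k * g * k⁻¹) :=
  ⟨hk, (cm_mul (cm_mul e.symm hg.2.1.symm) (cm_inv e.symm)).symm, by rw [conj_pow, hg.2.2]; group⟩

omit h in
theorem e8cj (hk : k ∈ K) (e : t * k = k * t) (hg : E8 K t g) : E8 K t (k * g * k⁻¹) :=
  e8cj' (Hy.cjK hk hg.1) e hg

theorem e8t : E8 K t t := ⟨h.tK, rfl, h.t4⟩

theorem e8mul (hg : E8 K t g) (hk : E8 K t k) : E8 K t (g * k) := by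
  refine ⟨mul_mem hg.1 hk.1, (cm_mul hg.2.1.symm hk.2.1.symm).symm, ?_⟩
  have h1 := e8cj hg.1 hg.2.1 hk
  rcases (by decide : ∀ α β : SL23, α ^ 4 = 1 → β ^ 4 = 1 → α * β * α⁻¹ = β ∨ α * β * α⁻¹ = β⁻¹) _ _
    (h.e8phi hg) (h.e8phi hk) with e | e
  · rw [(show Commute g k from cm_of_cj (h.e8inj h1 hk (by rw [h.phi_cj hg.1 hk.1, e]))).mul_pow, hg.2.2, hk.2.2,
      mul_one]
  · have h2 := h.e8inj h1 (e8inv hk) (by rw [h.phi_cj hg.1 hk.1, e, h.phi_inv hk.1])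
    have h3 : (g * k) ^ 2 = k⁻¹ * g ^ 2 * k⁻¹⁻¹ := by rw [inv_inv, ← h2, pow_two, pow_two]; group
    rw [show 4 = 2 * 2 from rfl, pow_mul, h3, conj_pow, ← pow_mul, hg.2.2]; group

theorem e8pow (hg : E8 K t g) (n : ℕ) : E8 K t (g ^ n) := by
  induction n with
  | zero => exact ⟨by simp, by simp, by simp⟩
  | succ n ih => rw [pow_succ]; exact h.e8mul ih hg

theorem e8ex {σ : SL23} (e : σ ^ 4 = 1) : ∃ g, E8 K t g ∧ φ g = σ := by
  obtain ⟨x, hx, rfl⟩ := h.surj σ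
  obtain ⟨k, hk, e1, e2⟩ := h.cover hx
  have h1 := h.exp _ ((h.ker _ (pow_mem hk 4)).mp (by rw [h.phi_pow hk, e2, e]))
  refine ⟨k ^ 9, ⟨pow_mem hk 9, (cm_pow e1.symm 9).symm, ?_⟩, ?_⟩
  · rw [← pow_mul, show 9 * 4 = 4 * 3 * 3 from rfl, pow_mul, pow_mul, h1, one_pow]
  · rw [h.phi_pow hk, e2, show 9 = 4 * 2 + 1 from rfl, pow_succ, pow_mul, e, one_pow, one_mul]

theorem exists_w : ∃ w, t * w = w * t ∧ w * z = z * w ∧ (∀ g, g * z = z * g → g ∈ K ∨ g * w ∈ K) ∧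
    (∀ c, Ei z Q t (-1) c → w * c = c * w) ∧ (w = 1 ∨ Sc z Q t 1 w (-1)) ∧ ∀ g, E8 K t g → w * g = g * w := by
  let P (w : G) : Prop := w * z = z * w ∧ (∀ k ∈ K, w * k * w⁻¹ * k⁻¹ ∈ Q) ∧ ∀ g, g * z = z * g → g ∈ K ∨ g * w ∈ K
  have hP : ∀ w m, P w → m ∈ K → φ m = 1 ∨ φ m = -1 → P (w * m) := fun w m ⟨h1, h2, h3⟩ hm e =>
    ⟨cm_mul h1 (h.Kz m hm), fun k hk => by
      have h4 := h.phi_eq (Hy.cjK hm hk) hk (by rw [h.phi_cj hm hk]; rcases e with e | e <;> simp [e])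
      convert mul_mem (h.nC h1 h4) (h2 k hk) using 1
      group, fun g hg => (h3 g hg).imp_right fun e => by rw [← mul_assoc]; exact mul_mem e hm⟩
  have hQ : ∀ w m, P w → m ∈ Q → P (w * m) := fun w m h1 hm =>
    hP w m h1 (h.QK hm) (.inl ((h.ker m (h.QK hm)).mpr hm))
  have t4 : ∀ w : G, w * w = 1 → w ^ 4 = 1 := fun w e => by
    rw [show 4 = 2 * 2 from rfl, pow_mul, pow_two w, e, one_pow]
  obtain ⟨w, ww, p1⟩ : ∃ w, w * w = 1 ∧ P w := by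
    obtain ⟨w, h1, h2, h3⟩ := h.out
    refine ⟨_, ?_, hQ w _ ⟨h1, h3⟩ h2⟩
    rw [← h.exp _ h2, pow_three]; group
  obtain ⟨w, ww, tw, p1⟩ : ∃ w, w * w = 1 ∧ t * w = w * t ∧ P w := by
    have wi := inv_eq_of_mul_eq_one_right ww
    have h1 := p1.2.1 t h.tK
    rw [wi, h.ti] at h1
    have h2 := h.exp _ h1
    have h3 : (w * t) ^ 3 * (w * t) ^ 3 = 1 := by rw [← h2, ← (Commute.refl _).mul_pow, ← mul_assoc]
    have h4 : t * (w * t) ^ 3 = (w * t) ^ 3 * t := cm_of_cj (by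
      rw [← conj_pow, ← inv_eq_of_mul_eq_one_right h3, ← inv_pow, mul_inv_rev, wi, h.ti, ← mul_assoc, mul_assoc _ t,
        h.tt, mul_one])
    refine ⟨(w * t) ^ 3 * t, by rw [mul_assoc, ← mul_assoc t, h4, ← mul_assoc, ← mul_assoc, h3, one_mul, h.tt],
      by rw [← mul_assoc, h4], ?_⟩
    convert hQ w _ p1 (h.nC h.tz h1) using 1
    rw [pow_three]
    nth_rewrite 4 [← h.ti]
    simp only [mul_assoc, mul_inv_cancel, h.ti, h.tt]
  have key : ∀ w, w * w = 1 → t * w = w * t → P w → ∀ ε : ZMod 3, ε ≠ 0 → Sc z Q t ε w 1 ∨ Sc z Q t ε w (-1) :=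
    fun w ww tw p1 ε he => by
      obtain ⟨c, hc, c1⟩ := h.exE (neg_ne_zero.mpr he)
      exact h.dich he hc c1 p1.1 (fun _ => h.Econj p1.1 (by rw [tw, mul_inv_cancel]; exact one_mem _))
        fun x _ q _ => by rw [ww]; simp
  obtain ⟨w, ww, tw, p1, p2⟩ : ∃ w, w * w = 1 ∧ t * w = w * t ∧ P w ∧ Sc z Q t (-1) w 1 := by
    rcases key w ww tw p1 (-1) (by decide) with e | e
    · exact ⟨w, ww, tw, p1, e⟩
    refine ⟨w * t, by rw [mul_assoc, ← mul_assoc t, tw, mul_assoc, h.tt, mul_one, ww], by rw [← mul_assoc, tw],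
      hP w t p1 h.tK (.inr h.tφ), ?_⟩
    simpa using h.Scmul h.tK e fun x hx => hx.2
  have p3 : ∀ c, Ei z Q t (-1) c → w * c = c * w := fun c hc =>
    h.cm4 p1.1 (t4 w ww) hc.1 fun r hr => (p2 c hc r hr).trans (one_mul _)
  refine ⟨w, tw, p1.1, p1.2.2, p3, (key w ww tw p1 1 one_ne_zero).imp_left fun e => sq_cube ww
    (h.exp w (h.zle (h.cen w fun q hq => ?_))), fun g hg => cm_of_cj ?_⟩
  · obtain ⟨c, hc, a, ha, e1, e2, rfl⟩ := h.dec hq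
    exact (cm_mul (p3 c (h.invE hc e1)).symm (h.cm4 p1.1 (t4 w ww) ha fun r hr =>
      (e a (Ht.cmE1 ha e2) r hr).trans (one_mul _)).symm).symm
  · have h1 := h.QK (p1.2.1 g hg.1)
    have h2 : w * g * w⁻¹ = w * g * w⁻¹ * g⁻¹ * g := by group
    refine h.e8inj (e8cj' (h2 ▸ mul_mem h1 hg.1) tw hg) hg ?_
    rw [h2, h.mul _ h1 _ hg.1, (h.ker _ h1).mpr (p1.2.1 g hg.1), one_mul]

end Hf

end Cfsg.Agent.O83.Bs
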