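import Cfsg.Agent.O83.BsHyp

/-! Mutual pairs, and the reduction from the hypotheses of the recognition theorem. -/

set_option autoImplicit false
set_option linter.unusedSectionVars false
set_option maxRecDepth 100000
set_option synthInstance.maxSize 4000

namespace Cfsg.Agent.O83.Bs

open Subgroup Cfsg.Agent.Local Cfsg.Agent.L43

variable {G : Type*} [Group G] [Finite G]

theorem Hy.conj {z : G} {Q K : Subgroup G} {φ : G → SL23} (h : Hy z Q K φ) (x : G) :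
    Hy (x * z * x⁻¹) (cq x Q) (cq x K) fun g => φ (x⁻¹ * g * x) := by
  have m : ∀ a b : G, x⁻¹ * (a * b) * x = x⁻¹ * a * x * (x⁻¹ * b * x) := fun a b => by group
  have i : ∀ a : G, x⁻¹ * a⁻¹ * x = (x⁻¹ * a * x)⁻¹ := fun a => by group
  have c : ∀ a : G, x⁻¹ * (x * a * x⁻¹) * x = a := fun a => by group
  refine ⟨(orderOf_conj' _ _).trans h.oz, mem_cq.mpr ((c z).symm ▸ h.zQ), fun q hq => ?_,
    fun p hp q hq => zp_cj.mpr (by simpa only [m, i] using h.com _ (mem_cq.mp hp) _ (mem_cq.mp hq)),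
    fun g hg => zp_cj.mpr (h.cen _ fun q hq => cm_cj'.mp (hg _ (mem_cq.mpr ((c q).symm ▸ hq)))), ?_,
    fun g hg q hq => mem_cq.mpr (by simpa only [m, i] using h.nC (cm_cj'.mp hg) (mem_cq.mp hq)),
    fun q hq => h.QK (mem_cq.mp hq), fun k hk => cm_cj'.mpr (h.Kz _ hk),
    fun a ha b hb => by rw [m, h.mul _ (mem_cq.mp ha) _ (mem_cq.mp hb)], fun a ha => h.ker _ ha, fun σ => ?_, ?_⟩
  · have := h.exp _ (mem_cq.mp hq)
    rw [show x⁻¹ * q * x = x⁻¹ * q * x⁻¹⁻¹ by group, conj_pow] at this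
    exact conj_eq_one_iff.mp this
  · rw [cq, ← map_equiv_eq_comap_symm', card_map_of_injective (MulAut.conj x).injective, h.card]
  · obtain ⟨g, hg, e⟩ := h.surj σ
    exact ⟨x * g * x⁻¹, mem_cq.mpr ((c g).symm ▸ hg), by rw [c, e]⟩
  · obtain ⟨w, h1, h2, h3, h4⟩ := h.out
    refine ⟨x * w * x⁻¹, by rw [conj_mul, conj_mul, h1], mem_cq.mpr (by rwa [m, c]), fun k hk => mem_cq.mpr ?_,
      fun g hg => (h4 _ (cm_cj'.mp hg)).imp id fun e => mem_cq.mpr (by rwa [m, c])⟩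
    convert h3 _ (mem_cq.mp hk) using 1
    group

theorem Hf.conj {z t : G} {Q K : Subgroup G} {φ : G → SL23} (h : Hf z Q K φ t) (x : G) :
    Hf (x * z * x⁻¹) (cq x Q) (cq x K) (fun g => φ (x⁻¹ * g * x)) (x * t * x⁻¹) := by
  have c : ∀ a : G, x⁻¹ * (x * a * x⁻¹) * x = a := fun a => by group
  obtain ⟨a, ha, a1⟩ := h.ex1
  exact ⟨⟨h.toHy.conj x, mem_cq.mpr ((c t).symm ▸ h.tK), by rw [c, h.tφ], by rw [conj_mul, h.tt]; group⟩,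
    x * a * x⁻¹, Ht.cmE1 (mem_cq.mpr ((c a).symm ▸ ha.1)) (by rw [conj_mul, conj_mul, h.E1cm ha]),
    fun e => a1 (c a ▸ zp_cj.mp e)⟩

/-- A mutual pair. -/
structure Mp (z w : G) (Q Q' K K' : Subgroup G) (φ φ' : G → SL23) : Prop where
  H : Hy z Q K φ
  H' : Hy w Q' K' φ'
  wQ : w ∈ Q
  w1 : w ∉ zpowers z

namespace Mp

variable {z w : G} {Q Q' K K' : Subgroup G} {φ φ' : G → SL23} (M : Mp z w Q Q' K K' φ φ') {a b t : G}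
include M

theorem zw {e : G} (h1 : e ∈ zpowers z) (h2 : e ∈ zpowers w) : e = 1 := by
  rcases mem_zpowers_three M.H'.oz h2 with rfl | rfl | rfl
  exacts [rfl, absurd h1 M.w1, absurd (inv_mem_iff.mp h1) M.w1]

theorem z1 : z ∉ zpowers w := fun e => by simpa [M.zw (mem_zpowers z) e] using M.H.oz

theorem exA : z ∈ Q' ∧ ∃ a ∈ Q, a ∈ Q' ∧ ∃ b ∈ Q, om z b w = 0 ∧ om z a b ≠ 0 := by
  have H := M.H
  obtain ⟨b, hb, e⟩ := H.exom M.wQ M.w1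
  obtain ⟨a, ⟨⟨ha, aw⟩, ab⟩, a1⟩ : ∃ a ∈ Q ⊓ centralizer {w} ⊓ centralizer {b}, a ∉ zpowers z := by
    by_contra! hn
    have h1 := H.index3 le_rfl M.wQ
    have h2 := H.index3 (X := Q ⊓ centralizer {w}) inf_le_left hb
    have h3 := card_le_of_le (show _ ≤ _ from hn)
    rw [Nat.card_zpowers, H.oz] at h3
    have := H.card
    omega
  obtain ⟨q, hq, e1⟩ := H.exom ha a1
  obtain ⟨l, -, e2⟩ := H.kill hb M.wQ hq (by rw [H.anti M.wQ hb, e]; decide)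
  have h1 := mul_mem hq (pow_mem hb l)
  have e3 : om z a (q * b ^ l) = 1 := by
    rw [H.omR ha hq (pow_mem hb l), H.powR ha hb, (H.om0 ha hb).mpr (mem_centralizer_singleton_iff.mp ab), e1]; ring
  generalize q * b ^ l = c at *
  have aw := mem_centralizer_singleton_iff.mp aw
  have cw := (H.om0 h1 M.wQ).mp e2
  have e4 : a * c * a⁻¹ * c⁻¹ = z := mul_inv_eq_iff_eq_mul.mpr ((H.om1 ha h1).mp e3)
  have zK := M.H'.memK (H.le w M.wQ).symm H.z3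
  have aK := M.H'.memK aw (H.exp a ha)
  have cK := M.H'.memK cw (H.exp c h1)
  have p3 : ∀ x ∈ Q, x ∈ K' → φ' x ^ 3 = 1 := fun x hx e => by rw [← M.H'.phi_pow e, H.exp x hx, M.H'.phi_one]
  have e5 : φ' z = φ' a * φ' c * (φ' a)⁻¹ * (φ' c)⁻¹ := by
    rw [← e4, M.H'.mul _ (Hy.cjK aK cK) _ (inv_mem cK), M.H'.phi_cj aK cK, M.H'.phi_inv cK]
  obtain ⟨e6, e7⟩ := (by decide : ∀ α β : SL23, α ^ 3 = 1 → β ^ 3 = 1 → (α * β * α⁻¹ * β⁻¹) ^ 3 = 1 →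
    α * β * α⁻¹ * β⁻¹ = 1 ∧ (α = 1 ∨ ∃ i < 3, β * α ^ i = 1)) _ _ (p3 a ha aK) (p3 c h1 cK) (e5 ▸ p3 z H.zQ zK)
  refine ⟨(M.H'.ker z zK).mp (e5.trans e6), ?_⟩
  rcases e7 with e7 | ⟨i, -, e7⟩
  · exact ⟨a, ha, (M.H'.ker a aK).mp e7, c, h1, e2, by rw [e3]; decide⟩
  · refine ⟨_, mul_mem h1 (pow_mem ha i), (M.H'.ker _ (mul_mem cK (pow_mem aK i))).mp (by
      rwa [M.H'.mul _ cK _ (pow_mem aK i), M.H'.phi_pow aK]), a, ha, (H.om0 ha M.wQ).mpr aw, ?_⟩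
    rw [H.omL h1 (pow_mem ha i) ha, H.powL ha ha, H.omS ha, H.anti ha h1, e3, mul_zero]
    decide

theorem symm : Mp w z Q' Q K' K φ' φ := ⟨M.H', M.H, M.exA.1, M.z1⟩

theorem comm (h1 : a ∈ Q) (h2 : a ∈ Q') (h3 : b ∈ Q) (h4 : b ∈ Q') : a * b = b * a := by
  rw [← mul_inv_eq_iff_eq_mul, ← mul_inv_eq_one]
  exact M.zw (M.H.com a h1 b h3) (M.H'.com a h2 b h4)

theorem exS : ∃ s ∈ Q', s ∈ K ∧ s ∉ Q ∧ ∃ u ∈ Q, u ∈ Q' ∧ s * u * s⁻¹ = w * u := by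
  have H := M.H'
  obtain ⟨zQ, a, a1, a2, b, hb, bw, ab⟩ := M.exA
  replace bw := (M.H.om0 hb M.wQ).mp bw
  obtain ⟨c, hc, e⟩ := H.exom zQ M.z1
  obtain ⟨k, -, e1⟩ := H.kill zQ hc a2 (by rw [e]; decide)
  have h1 := mul_mem a2 (pow_mem zQ k)
  obtain ⟨q, hq, e2⟩ := H.exom h1 fun e => ab ((M.H.om0 a1 hb).mpr (by
    have := cm_mul (cm_zp bw e).symm (cm_inv (cm_pow (M.H.le b hb).symm k))
    rwa [mul_inv_cancel_right] at this))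
  obtain ⟨l, -, e3⟩ := H.kill hc zQ hq (by rw [H.anti zQ hc, e]; decide)
  have h2 := mul_mem hq (pow_mem hc l)
  have e4 : om w (q * c ^ l) (a * z ^ k)⁻¹ = 1 := by
    rw [H.invR h2 h1, ← H.anti h2 h1, H.omR h1 hq (pow_mem hc l), H.powR h1 hc, e1, e2]; ring
  rw [H.om1 h2 (inv_mem h1)] at e4
  have h3 := inv_mem (mul_mem a1 (pow_mem M.H.zQ k))
  refine ⟨_, h2, M.H.memK ((H.om0 h2 zQ).mp e3) (H.exp _ h2), fun e5 => M.w1 ?_, _, h3, inv_mem h1, e4⟩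
  simpa only [e4, mul_inv_cancel_right] using M.H.com _ e5 _ h3

theorem exN : ∃ n, n * z * n⁻¹ = z⁻¹ := by
  have zQ := M.exA.1
  obtain ⟨b, hb, e1⟩ := M.H.exom M.wQ M.w1
  obtain ⟨c, hc, e2⟩ := M.H'.exom zQ M.z1
  obtain ⟨e3, e4⟩ := rot (M.H.le w M.wQ) (M.H.le _ (inv_mem hb)) ((M.H.om1 (inv_mem hb) M.wQ).mp (by
    rw [M.H.invL hb M.wQ, ← M.H.anti hb M.wQ, e1])) (M.H'.le _ (inv_mem hc)) ((M.H'.om1 (inv_mem hc) zQ).mp (by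
    rw [M.H'.invL hc zQ, ← M.H'.anti hc zQ, e2]))
  exact ⟨_ * _, by rw [cj_mul', e3, ← conj_inv, e4]⟩

end Mp

theorem span_aux {M : Type*} [AddCommGroup M] [Module (ZMod 3) M] {σ ι : SL23} (h1 : σ ^ 3 = 1) (h2 : σ ≠ 1)
    (h3 : ι * ι = -1) (h4 : ι * (σ * ι * σ⁻¹) = σ⁻¹ * ι * σ) {f : SL23 → M} (f1 : ∀ τ, f (τ * σ) = f τ)
    (f2 : ∀ τ, f (-τ) = -f τ) (f3 : ∀ τ, f (τ * ι) + f (τ * (σ * ι * σ⁻¹)) + f (τ * (σ⁻¹ * ι * σ)) = 0) (τ : SL23) :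
    ∃ α β : ZMod 3, f τ = α • f 1 + β • f ι := by
  obtain ⟨e1, e2⟩ := (by decide : ∀ σ ι : SL23, σ ^ 3 = 1 → σ ≠ 1 → ι * ι = -1 → ι * (σ * ι * σ⁻¹) = σ⁻¹ * ι * σ →
    ι * (σ⁻¹ * ι * σ) = -(σ * ι * σ⁻¹) ∧ ∀ τ, ∃ ρ ∈ [1, ι, σ * ι * σ⁻¹, σ⁻¹ * ι * σ],
      ∃ ρ' ∈ [ρ, -ρ], τ = ρ' ∨ τ = ρ' * σ ∨ τ = ρ' * σ * σ) σ ι h1 h2 h3 h4
  have k1 := f3 1
  have k2 := f3 ι
  simp only [one_mul] at k1
  rw [h3, h4, e1, f2, f2] at k2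
  have three : ∀ x : M, x + x + x = 0 := fun x => by
    rw [← one_smul (ZMod 3) x, ← add_smul, ← add_smul, show (1 : ZMod 3) + 1 + 1 = 0 from rfl, zero_smul]
  have k3 : f (σ * ι * σ⁻¹) = f 1 + f ι := by
    linear_combination (norm := abel) three (f (σ * ι * σ⁻¹)) - k1 + k2
  have k4 : f (σ⁻¹ * ι * σ) = -f 1 + f ι := by
    linear_combination (norm := abel) k1 - k3 - three (f ι)
  obtain ⟨ρ, hρ, ρ', hρ', e⟩ := e2 τ
  obtain ⟨α, β, e3⟩ : ∃ α β : ZMod 3, f ρ = α • f 1 + β • f ι := by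
    simp only [List.mem_cons, List.not_mem_nil, or_false] at hρ
    rcases hρ with rfl | rfl | rfl | rfl
    exacts [⟨1, 0, by simp⟩, ⟨0, 1, by simp⟩, ⟨1, 1, by simp [k3]⟩, ⟨-1, 1, by simp [k4]⟩]
  have e4 : f τ = f ρ' := by rcases e with rfl | rfl | rfl <;> simp only [f1]
  simp only [List.mem_cons, List.not_mem_nil, or_false] at hρ'
  rcases hρ' with rfl | rfl
  exacts [⟨α, β, e4.trans e3⟩, ⟨-α, -β, by rw [e4, f2, e3, neg_smul, neg_smul, neg_add]⟩]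

theorem Ht.reducible {z t s v : G} {Q K : Subgroup G} {φ : G → SL23} (h : Ht z Q K φ t)
    (hn : ∀ a, Ei z Q t 1 a → a ∈ zpowers z) (hs : s ∈ K) (s3 : s ^ 3 = 1) (s1 : s ∉ Q) (hv : v ∈ Q)
    (v1 : v ∉ zpowers z) (sv : s * v = v * s) :
    ∃ B : Subgroup G, zpowers z < B ∧ B < Q ∧ ∀ k ∈ K, ∀ b ∈ B, k * b * k⁻¹ ∈ B := by
  have hE : ∀ a ∈ Q, Ei z Q t (-1) a := fun a ha => ⟨ha, fun q hq => by
    have := h.omZ (hn _ (h.split ha).1) hq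
    rw [h.omL ha (h.nC h.tz ha) hq] at this
    linear_combination this⟩
  have σ3 : φ s ^ 3 = 1 := by rw [← h.phi_pow hs, s3, h.phi_one]
  have σ1 : φ s ≠ 1 := fun e => s1 ((h.ker s hs).mp e)
  obtain ⟨ι, ι1, ι2, ι3⟩ := (by decide : ∀ σ : SL23, σ ^ 3 = 1 → σ ≠ 1 → ∃ ι, ι * ι = -1 ∧
    ι * (σ * ι * σ⁻¹) = σ⁻¹ * ι * σ ∧ ∀ a ∈ [ι, σ * ι * σ⁻¹, σ⁻¹ * ι * σ], a * a = -1 ∧
      a * (σ * a * σ⁻¹) = σ⁻¹ * a * σ ∧ a * (σ⁻¹ * a * σ) = -(σ * a * σ⁻¹)) _ σ3 σ1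
  choose ψ ψK ψφ using h.surj
  let X (v : G) (τ : SL23) (p : Q) : ZMod 3 := om z (ψ τ * v * (ψ τ)⁻¹) p
  have X1 : ∀ v ∈ Q, ∀ g ∈ K, ∀ p : Q, om z (g * v * g⁻¹) p = X v (φ g) p := fun v hv g hg p => by
    rw [show g * v * g⁻¹ = g * (ψ (φ g))⁻¹ * (ψ (φ g) * v * (ψ (φ g))⁻¹) * (g * (ψ (φ g))⁻¹)⁻¹ by group]
    exact h.omQ (h.phi_eq hg (ψK _) (ψφ _).symm) (h.nC (h.Kz _ (ψK _)) hv) p.2
  have X2 : ∀ v ∈ Q, ∀ g ∈ K, ∀ τ, X (g * v * g⁻¹) τ = X v (τ * φ g) := fun v hv g hg τ => funext fun p => by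
    rw [← ψφ τ, ← h.mul _ (ψK τ) _ hg, ← X1 v hv _ (mul_mem (ψK τ) hg), cj_mul', ψφ]
  have X3 : ∀ v ∈ Q, ∀ τ, X v (-τ) = -X v τ := fun v hv τ => funext fun p => by
    rw [← mul_neg_one, ← h.tφ, ← X2 v hv t h.tK]
    simp only [X, Pi.neg_apply]
    rw [h.omC' (h.Kz _ (ψK τ)) (h.nC h.tz hv) p.2, (hE v hv).2 _ (h.nC2 (h.Kz _ (ψK τ)) p.2),
      h.omC' (h.Kz _ (ψK τ)) hv p.2, neg_one_mul]
  have X4 : ∀ a ∈ Q, ∀ b ∈ Q, ∀ τ, X (a * b) τ = X a τ + X b τ := fun a ha b hb τ => funext fun p => by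
    simp only [X, Pi.add_apply]
    rw [← conj_mul, h.omL (h.nC (h.Kz _ (ψK τ)) ha) (h.nC (h.Kz _ (ψK τ)) hb) p.2]
  have X5 : ∀ v ∈ Q, ∀ p : Q, X v 1 p = om z v p := fun v hv p => by
    rw [← h.phi_one, ← X1 v hv 1 (one_mem _)]; simp
  obtain ⟨u, hu, u1, f1, f3⟩ : ∃ u ∈ Q, u ∉ zpowers z ∧ (∀ τ, X u (τ * φ s) = X u τ) ∧
      ∀ τ, X u (τ * ι) + X u (τ * (φ s * ι * (φ s)⁻¹)) + X u (τ * ((φ s)⁻¹ * ι * φ s)) = 0 := by
    have f1 : ∀ τ, X v (τ * φ s) = X v τ := fun τ => by rw [← X2 v hv s hs, cj_of_cm sv]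
    have c : ∀ τ, ψ τ * v * (ψ τ)⁻¹ ∈ Q := fun τ => h.nC (h.Kz _ (ψK τ)) hv
    obtain ⟨u, hu, f2⟩ : ∃ u ∈ Q, ∀ τ,
        X u τ = X v (τ * ι) + X v (τ * (φ s * ι * (φ s)⁻¹)) + X v (τ * ((φ s)⁻¹ * ι * φ s)) :=
      ⟨_, mul_mem (mul_mem (c ι) (c (φ s * ι * (φ s)⁻¹))) (c ((φ s)⁻¹ * ι * φ s)), fun τ => by
        rw [X4 _ (mul_mem (c _) (c _)) _ (c _), X4 _ (c _) _ (c _), X2 v hv _ (ψK _), X2 v hv _ (ψK _),
          X2 v hv _ (ψK _), ψφ, ψφ, ψφ]⟩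
    by_cases u1 : u ∈ zpowers z
    · refine ⟨v, hv, v1, f1, fun τ => (f2 τ).symm.trans (funext fun p => ?_)⟩
      exact h.omZ (by rw [cj_of_cm (cm_zp (h.Kz _ (ψK τ)) u1)]; exact u1) p.2
    refine ⟨_, hu, u1, fun τ => ?_, fun τ => ?_⟩
    · have σi : (φ s)⁻¹ = φ s * φ s := inv_eq_of_mul_eq_one_left ((pow_three' _).symm.trans σ3)
      rw [f2, f2, show τ * φ s * ι = τ * (φ s * ι * (φ s)⁻¹) * φ s by group, f1,
        show τ * φ s * (φ s * ι * (φ s)⁻¹) = τ * ((φ s * φ s) * ι * φ s) * φ s * φ s * (φ s ^ 3)⁻¹ * (φ s)⁻¹ by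
          rw [pow_three]; group, σ3, inv_one, mul_one, mul_inv_cancel_right, f1, ← σi,
        show τ * φ s * ((φ s)⁻¹ * ι * φ s) = τ * ι * φ s by group, f1]
      abel
    · simp only [List.forall_mem_cons, List.not_mem_nil, IsEmpty.forall_iff, implies_true, and_true] at ι3
      obtain ⟨⟨-, -, a3⟩, ⟨b1, b2, b3⟩, c1, c2, c3⟩ := ι3
      have σi : φ s * φ s = (φ s)⁻¹ := eq_inv_of_mul_eq_one_left ((pow_three' _).symm.trans σ3)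
      have σj : (φ s)⁻¹ * (φ s)⁻¹ = φ s := by rw [← mul_inv_rev, σi, inv_inv]
      rw [show φ s * (φ s * ι * (φ s)⁻¹) * (φ s)⁻¹ = φ s * φ s * ι * ((φ s)⁻¹ * (φ s)⁻¹) by group, σi, σj,
        show (φ s)⁻¹ * (φ s * ι * (φ s)⁻¹) * φ s = ι by group] at b2 b3
      rw [show (φ s)⁻¹ * ((φ s)⁻¹ * ι * φ s) * φ s = (φ s)⁻¹ * (φ s)⁻¹ * ι * (φ s * φ s) by group, σi, σj,
        show φ s * ((φ s)⁻¹ * ι * φ s) * (φ s)⁻¹ = ι by group] at c2 c3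
      simp only [f2, mul_assoc τ, ι1, ι2, a3, b1, b2, b3, c1, c2, c3, mul_neg, mul_one, X3 v hv]
      funext p
      simp only [Pi.add_apply, Pi.neg_apply, Pi.zero_apply]
      linear_combination (-X v τ p) * (by decide : (3 : ZMod 3) = 0)
  have hi := h.nC (h.Kz _ (ψK ι)) hu
  let B : Subgroup G :=
    { carrier := {q | q ∈ Q ∧ ∃ α β : ZMod 3, ∀ p ∈ Q, om z q p = α * om z u p + β * om z (ψ ι * u * (ψ ι)⁻¹) p}
      one_mem' := ⟨one_mem _, 0, 0, fun p hp => by simpa using h.omZ (one_mem _) hp⟩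
      mul_mem' := fun ⟨h1, α, β, h2⟩ ⟨h3, γ, δ, h4⟩ => ⟨mul_mem h1 h3, α + γ, β + δ, fun p hp => by
        rw [h.omL h1 h3 hp, h2 p hp, h4 p hp]; ring⟩
      inv_mem' := fun ⟨h1, α, β, h2⟩ => ⟨inv_mem h1, -α, -β, fun p hp => by rw [h.invL h1 hp, h2 p hp]; ring⟩ }
  refine ⟨B, lt_of_le_of_ne (fun q hq => ⟨h.zle hq, 0, 0, fun p hp => by simpa using h.omZ hq hp⟩)
    fun e => u1 (e.ge ⟨hu, 1, 0, fun p _ => by ring⟩), lt_of_le_of_ne (fun q hq => hq.1) fun e => ?_,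
    fun k hk b ⟨h1, α, β, h2⟩ => ?_⟩
  · have h1 := h.index3 le_rfl hu
    have h2 := h.index3 (X := Q ⊓ centralizer {u}) inf_le_left hi
    have h3 := card_le_of_le (show Q ⊓ centralizer {u} ⊓ centralizer {ψ ι * u * (ψ ι)⁻¹} ≤ zpowers z from
      fun p ⟨⟨p1, p2⟩, p3⟩ => (h.memZ p1).mpr fun q hq => by
        obtain ⟨-, α, β, h4⟩ := e.ge hq
        rw [h.anti hq p1, h4 p p1, h.anti p1 hu, h.anti p1 hi, (h.om0 p1 hu).mpr (mem_centralizer_singleton_iff.mp p2),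
          (h.om0 p1 hi).mpr (mem_centralizer_singleton_iff.mp p3)]; ring)
    rw [Nat.card_zpowers, h.oz] at h3
    have := h.card
    omega
  · have kz := h.Kz k hk
    obtain ⟨γ, δ, e1⟩ := span_aux σ3 σ1 ι1 ι2 f1 (X3 u hu) f3 (φ k)
    obtain ⟨γ', δ', e2⟩ := span_aux σ3 σ1 ι1 ι2 f1 (X3 u hu) f3 (φ k * ι)
    refine ⟨h.nC kz h1, α * γ + β * γ', α * δ + β * δ', fun p hp => ?_⟩
    have e3 := congrFun e1 ⟨p, hp⟩
    have e4 := congrFun e2 ⟨p, hp⟩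
    nth_rewrite 1 [← ψφ ι, ← X2 u hu _ (ψK ι)] at e4
    simp only [Pi.add_apply, Pi.smul_apply, smul_eq_mul, X5 u hu, ← X1 u hu k hk, ← X1 _ hi k hk] at e3 e4
    rw [h.omC' kz h1 hp, h2 _ (h.nC2 kz hp), ← h.omC' kz hu hp, ← h.omC' kz hi hp, e3, e4]
    simp only [X]
    ring

theorem mem_pResidual {X : Type*} [Group X] (π : X →* SL23 × Multiplicative (ZMod 2)) (h1 : Function.Injective π)
    (h2 : ∀ σ, ∃ x, π x = (σ, 1)) {x : X} : x ∈ Cfsg.pResidual 2 X ↔ (π x).2 = 1 := by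
  refine ⟨fun hx => (closure_le ((MonoidHom.snd _ _).comp π).ker).mpr (fun y hy => ?_) hx, fun hx => ?_⟩
  · exact orderOf_eq_one_iff.mp (Nat.eq_one_of_dvd_coprimes hy (orderOf_map_dvd ((MonoidHom.snd _ _).comp π) y)
      (orderOf_dvd_of_pow_eq_one ((by decide : ∀ a : Multiplicative (ZMod 2), a ^ 2 = 1) _)))
  obtain ⟨a, b, ha, hb, h⟩ := (by decide : ∀ s : SL23, ∃ a b : SL23, a ^ 3 = 1 ∧ b ^ 3 = 1 ∧
    (s = a * b ∨ s = a * b * (a * b))) (π x).1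
  have h3 : ∀ a : SL23, a ^ 3 = 1 → ∃ y ∈ Cfsg.pResidual 2 X, π y = (a, 1) := fun a ha =>
    let ⟨y, hy⟩ := h2 a
    ⟨y, subset_closure (Nat.Coprime.coprime_dvd_left (orderOf_dvd_of_pow_eq_one (n := 3)
      (h1 (by rw [map_pow, hy, map_one]; exact Prod.ext ha rfl))) (by norm_num)), hy⟩
  obtain ⟨y, y1, y2⟩ := h3 a ha
  obtain ⟨u, u1, u2⟩ := h3 b hb
  rcases h with h | h
  · exact (h1 (by rw [map_mul, y2, u2]; exact Prod.ext h hx) : x = y * u) ▸ mul_mem y1 u1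
  · exact (h1 (by simp only [map_mul, y2, u2]; exact Prod.ext h hx) : x = y * u * (y * u)) ▸
      mul_mem (mul_mem y1 u1) (mul_mem y1 u1)

theorem wrap
    (S : Sylow 3 G) (Z : Subgroup G) (hZ : Z = (S : Subgroup G) ⊓ Subgroup.centralizer ((S : Subgroup G) : Set G))
    (C : Subgroup G) (hCZ : C = Subgroup.centralizer (Z : Set G))
    (Q : Subgroup G) (hQ : Q = (Cfsg.pCore 3 C).map C.subtype)
    (hQex : Cfsg.IsExtraspecial 3 Q) (hQcard : Nat.card Q = 3 ^ 5) (hQexp : ∀ a ∈ Q, a ^ 3 = 1)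
    (hCQ : Subgroup.centralizer (Q : Set G) ≤ Q)
    (hZQ : ∃ x : G, Z.map (MulAut.conj x).toMonoidHom ≤ Q ∧ Z.map (MulAut.conj x).toMonoidHom ≠ Z)
    (K : Subgroup G) (hK : K = ((Cfsg.pResidual 2 (C ⧸ Cfsg.pCore 3 C)).comap (QuotientGroup.mk' (Cfsg.pCore 3 C))).map C.subtype)
    (r : ℕ) (A : Fin (r + 1) → Subgroup G) (hA0 : A 0 = Z) (hAr : A (Fin.last r) = Q)
    (hmono : ∀ i : Fin r, A i.castSucc < A i.succ)
    (hinv : ∀ i : Fin (r + 1), ∀ k ∈ K, ∀ a ∈ A i, k * a * k⁻¹ ∈ A i)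
    (hmax : ∀ i : Fin r, ∀ B : Subgroup G, A i.castSucc < B → B < A i.succ → ∃ k ∈ K, ∃ b ∈ B, k * b * k⁻¹ ∉ B)
    (e : Nonempty (C ⧸ Cfsg.pCore 3 C ≃* Matrix.SpecialLinearGroup (Fin 2) (ZMod 3)) ∨
      Nonempty (C ⧸ Cfsg.pCore 3 C ≃* Matrix.SpecialLinearGroup (Fin 2) (ZMod 3) × Multiplicative (ZMod 2)))
    (hone : ∃! i : Fin r, (∃ k ∈ K, ∃ a ∈ A i.succ, k * a * k⁻¹ * a⁻¹ ∉ A i.castSucc)) :
    ∃ (z : G) (φ : G → SL23) (t x : G), Hf z Q K φ t ∧ x * z * x⁻¹ ∈ Q ∧ x * z * x⁻¹ ∉ zpowers z := by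
  classical
  obtain ⟨x, hx1, hx2⟩ := hZQ
  have QC : Q ≤ C := hQ ▸ map_subtype_le _
  have KC : K ≤ C := hK ▸ map_subtype_le _
  have ZC : ∀ z ∈ Z, ∀ q ∈ Q, q * z = z * q := fun z hz q hq => ((hCZ ▸ QC hq) z hz).symm
  have ZQ : Z ≤ Q := fun z hz => hCQ (ZC z hz)
  have Z1 : Z ≠ ⊥ := fun h => hx2 (by rw [h, Subgroup.map_bot])
  obtain ⟨⟨z, hz⟩, hz1⟩ := (Z.ne_bot_iff_exists_ne_one).1 Z1
  have oz : orderOf z = 3 := orderOf_eq_prime (hQexp z (ZQ hz)) fun h => hz1 (Subtype.ext h)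
  have cen : ∀ g, (∀ q ∈ Q, q * g = g * q) → g ∈ zpowers z := by
    intro g hg
    have h1 : zpowers z = (center Q).map Q.subtype := eq_of_le_of_card_ge
      (zpowers_le.2 ⟨⟨z, ZQ hz⟩, mem_center_iff.2 fun q => Subtype.ext (ZC z hz q q.2), rfl⟩)
      (by rw [card_subtype, hQex.2, Nat.card_zpowers, oz])
    rw [h1]
    exact ⟨⟨g, hCQ hg⟩, mem_center_iff.2 fun q => Subtype.ext (hg q q.2), rfl⟩
  have Zz : Z = zpowers z := le_antisymm (fun y hy => cen y (ZC y hy)) (zpowers_le.2 hz)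
  have mC : ∀ {g}, g ∈ C ↔ g * z = z * g := fun {g} =>
    ⟨fun h => ((hCZ ▸ h) z hz).symm, fun h => hCZ ▸ fun y hy => (cm_zp h (Zz ▸ hy)).symm⟩
  obtain ⟨ρ, ρ1, ρ2⟩ : ∃ ρ : C ⧸ pCore 3 C →* SL23 × Multiplicative (ZMod 2), Function.Injective ρ ∧
      ∀ σ, ∃ x, ρ x = (σ, 1) := by
    rcases e with ⟨⟨e⟩⟩ | ⟨⟨e⟩⟩
    · exact ⟨(MonoidHom.inl _ _).comp e.toMonoidHom, fun a b h => e.injective (congrArg Prod.fst h),
        fun σ => ⟨e.symm σ, Prod.ext (e.apply_symm_apply σ) rfl⟩⟩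
    · exact ⟨e.toMonoidHom, e.injective, fun σ => e.surjective _⟩
  let π := ρ.comp (QuotientGroup.mk' (pCore 3 C))
  have mK : ∀ {g : C}, (g : G) ∈ K ↔ (π g).2 = 1 :=
    hK ▸ (mem_map_iff_mem C.subtype_injective).trans (mem_pResidual ρ ρ1 ρ2)
  have mQ : ∀ {g : C}, (g : G) ∈ Q ↔ π g = 1 := hQ ▸ (mem_map_iff_mem C.subtype_injective).trans
    ((QuotientGroup.eq_one_iff _).symm.trans (map_eq_one_iff ρ ρ1).symm)
  have sj : ∀ σ, ∃ g : C, π g = (σ, 1) := fun σ =>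
    let ⟨x, hx⟩ := ρ2 σ
    let ⟨g, hg⟩ := QuotientGroup.mk'_surjective _ x
    ⟨g, (congrArg ρ hg).trans hx⟩
  have H : Hy z Q K fun g => if h : g ∈ C then (π ⟨g, h⟩).1 else 1 := by
    refine ⟨oz, ZQ hz, hQexp, fun p hp q hq => cen _ fun y hy => ?_,
      fun g hg => cen g fun q hq => (hg q hq).symm, hQcard, fun g hg q hq => ?_, fun q hq => ?_,
      fun k hk => mC.1 (KC hk), fun a ha b hb => ?_, fun a ha => ?_, fun σ => ?_, ?_⟩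
    · have := hQex.1.2.2.le (commutator_mem_commutator (mem_top (⟨p, hp⟩ : Q)) (mem_top ⟨q, hq⟩))
      exact congrArg Subtype.val (mem_center_iff.1 this ⟨y, hy⟩)
    · refine (mQ (g := ⟨g, mC.2 hg⟩ * ⟨q, QC hq⟩ * ⟨g, mC.2 hg⟩⁻¹)).2 ?_
      rw [map_mul, map_mul, (mQ (g := ⟨q, QC hq⟩)).1 hq, map_inv, mul_one, mul_inv_cancel]
    · exact (mK (g := ⟨q, QC hq⟩)).2 (by rw [mQ.1 hq]; rfl)
    · rw [dif_pos (KC ha), dif_pos (KC hb), dif_pos (mul_mem (KC ha) (KC hb))]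
      exact congrArg Prod.fst (map_mul π ⟨a, KC ha⟩ ⟨b, KC hb⟩)
    · rw [dif_pos (KC ha), mQ (g := ⟨a, KC ha⟩), Prod.ext_iff]
      exact (and_iff_left ((mK (g := ⟨a, KC ha⟩)).1 ha)).symm
    · obtain ⟨g, hg⟩ := sj σ
      exact ⟨g, mK.2 (by rw [hg]), (dif_pos g.2).trans (by rw [hg])⟩
    · obtain ⟨w, w1, w2⟩ : ∃ w : C, (π w).1 = 1 ∧ ∀ g, (π g).2 = 1 ∨ (π g).2 * (π w).2 = 1 := by
        by_cases hn : ∀ g, (π g).2 = 1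
        · exact ⟨1, by simp, fun g => .inl (hn g)⟩
        obtain ⟨g, hg⟩ := not_forall.mp hn
        obtain ⟨k, hk⟩ := sj (π g).1⁻¹
        refine ⟨g * k, by simp [hk], fun u => (by decide : ∀ a b : Multiplicative (ZMod 2), b ≠ 1 →
          a = 1 ∨ a * b = 1) _ _ (by simpa [hk] using hg)⟩
      refine ⟨w, mC.1 w.2, (mQ (g := w * w)).2 (Prod.ext (by simp [w1])
        ((congrArg Prod.snd (map_mul π w w)).trans ((by decide : ∀ a : Multiplicative (ZMod 2), a * a = 1) _))),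
        fun k hk => (mQ (g := w * ⟨k, KC hk⟩ * w⁻¹ * ⟨k, KC hk⟩⁻¹)).2 (Prod.ext (by simp [w1]) (by simp)),
        fun g hg => (w2 ⟨g, mC.2 hg⟩).imp mK.2 fun e => (mK (g := ⟨g, mC.2 hg⟩ * w)).2 (by simpa using e)⟩
  have x1 : x * z * x⁻¹ ∈ Q := hx1 ⟨z, hz, rfl⟩
  have x2 : x * z * x⁻¹ ∉ zpowers z := fun h => hx2 (by
    refine eq_of_le_of_card_ge ?_ (card_map_of_injective (MulAut.conj x).injective).ge
    rw [Zz, MonoidHom.map_zpowers]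
    exact zpowers_le.2 h)
  obtain ⟨t, t1, t2, t3⟩ := H.exists_t
  have T : Ht z Q K _ t := ⟨H, t1, t2, t3⟩
  refine ⟨z, _, t, x, ⟨T, ?_⟩, x1, x2⟩
  by_contra! hn
  have M : Mp z _ Q _ K _ _ _ := ⟨H, H.conj x, x1, x2⟩
  obtain ⟨s, s1, s2, s3, -⟩ := M.exS
  obtain ⟨B, b1, b2, b3⟩ := T.reducible hn s2 (M.H'.exp s s1) s3 x1 x2 (M.H'.le s s1)
  have mono : Monotone A := (Fin.strictMono_iff_lt_succ.2 hmono).monotone
  obtain ⟨i, -, hi⟩ := hone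
  have all : ∀ j : Fin r, j = i := fun j => hi j ⟨t, t1, by
    obtain ⟨a, a1, a2⟩ := SetLike.exists_of_lt (hmono j)
    refine ⟨a, a1, fun h => a2 ?_⟩
    have aQ : a ∈ Q := hAr ▸ mono (Fin.le_last _) a1
    have h1 : a * (t * a * t⁻¹) ∈ A j.castSucc := mono (Fin.zero_le _) (hA0 ▸ Zz ▸ hn _ (T.split aQ).1)
    have h2 := mul_mem (inv_mem h) (hinv _ _ (inv_mem (H.QK aQ)) _ h1)
    rwa [show (t * a * t⁻¹ * a⁻¹)⁻¹ * (a⁻¹ * (a * (t * a * t⁻¹)) * a⁻¹⁻¹) = a * a by group,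
      eq_inv_of_mul_eq_one_left ((pow_three' a).symm.trans (hQexp a aQ)), inv_mem_iff] at h2⟩
  obtain rfl : r = 1 := by
    have h1 := i.2
    have h2 := congrArg Fin.val (all ⟨0, by omega⟩)
    have h3 := congrArg Fin.val (all ⟨r - 1, by omega⟩)
    simp only at h2 h3
    omega
  obtain ⟨k, hk, b, hb, h⟩ := hmax 0 B (by rwa [show (0 : Fin 1).castSucc = 0 from rfl, hA0, Zz])
    (by rwa [show (0 : Fin 1).succ = Fin.last 1 from rfl, hAr])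
  exact h (b3 k hk b hb)

end Cfsg.Agent.O83.Bs
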