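import Mathlib.GroupTheory.Transfer
import Mathlib.GroupTheory.PGroup

/-! The transfer of an element of prime order, computed on the cosets fixed by a `p`-group. -/

set_option autoImplicit false

namespace Cfsg.Agent.O83

open Subgroup MulAction

theorem prod_fixed {R X A : Type*} [Group R] [MulAction R X] [Fintype X] [CommMonoid A] {p : ℕ}
    [Fact p.Prime] (hR : IsPGroup p R) (F : X → A) (hF : ∀ (r : R) q, F (r • q) = F q)
    (hA : ∀ q, F q ^ p = 1) [DecidablePred fun q : X => ∀ r : R, r • q = q] :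
    ∏ q, F q = ∏ q with ∀ r : R, r • q = q, F q := by
  classical
  have := Fintype.ofFinite (Quotient (orbitRel R X))
  rw [← Finset.prod_filter_mul_prod_filter_not _ (fun q : X => ∀ r : R, r • q = q),
    ← Finset.prod_fiberwise (Finset.univ.filter fun q : X => ¬ ∀ r : R, r • q = q)
      (Quotient.mk (orbitRel R X)), Finset.prod_eq_one (s := Finset.univ), mul_one]
  intro ω _
  rcases Finset.eq_empty_or_nonempty ((Finset.univ.filter fun q : X => ¬ ∀ r : R, r • q = q).filter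
    fun q => Quotient.mk (orbitRel R X) q = ω) with e | ⟨a, ha⟩
  · rw [e, Finset.prod_empty]
  simp only [Finset.mem_filter, Finset.mem_univ, true_and] at ha
  obtain ⟨h1, rfl⟩ := ha
  have h2 : ((Finset.univ.filter fun q : X => ¬ ∀ r : R, r • q = q).filter
      fun q => Quotient.mk (orbitRel R X) q = Quotient.mk (orbitRel R X) a) = (orbit R a).toFinset := by
    ext q
    simp only [Finset.mem_filter, Finset.mem_univ, true_and, Set.mem_toFinset, Quotient.eq, orbitRel_apply]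
    refine ⟨fun h => h.2, fun h => ⟨fun h3 => h1 fun r => ?_, h⟩⟩
    obtain ⟨k, rfl⟩ := h
    have h4 := h3 k⁻¹
    simp only [inv_smul_smul] at h4
    rw [h4]; exact h3 r
  obtain ⟨n, hn⟩ := hR.card_orbit a
  rw [h2, Finset.prod_congr rfl (g := fun _ => F a), Finset.prod_const, Set.toFinset_card,
    ← Nat.card_eq_fintype_card, hn]
  · cases n with
    | zero =>
      exact absurd (mem_fixedPoints_iff_card_orbit_eq_one.mpr (by
        rw [← Nat.card_eq_fintype_card, hn, pow_zero])) h1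
    | succ n => rw [pow_succ', pow_mul, hA, one_pow]
  · intro q hq
    obtain ⟨k, rfl⟩ := Set.mem_toFinset.mp hq
    exact hF k a

variable {G : Type*} [Group G] {H : Subgroup G} {A : Type*} [CommGroup A]

theorem smul_fix_iff {x : G} {q : G ⧸ H} : x • q = q ↔ q.out⁻¹ * x * q.out ∈ H := by
  conv_lhs => rw [← QuotientGroup.out_eq' q, eq_comm]
  rw [show x • ((q.out : G) : G ⧸ H) = ((x * q.out : G) : G ⧸ H) from rfl, QuotientGroup.eq, mul_assoc]

open Classical in
/-- The value of `ψ` on the conjugate of `x` given by a coset. -/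
noncomputable def fv (ψ : H →* A) (x g : G) : A := if h : g⁻¹ * x * g ∈ H then ψ ⟨_, h⟩ else 1

theorem fv_of_mem (ψ : H →* A) {x g : G} (h : g⁻¹ * x * g ∈ H) : fv ψ x g = ψ ⟨_, h⟩ := dif_pos h

theorem fv_mul (ψ : H →* A) (x g : G) {k : G} (hk : k ∈ H) : fv ψ x (g * k) = fv ψ x g := by
  by_cases h : g⁻¹ * x * g ∈ H
  · have h' : (g * k)⁻¹ * x * (g * k) ∈ H := by
      simpa [mul_assoc] using mul_mem (mul_mem (inv_mem hk) h) hk
    rw [fv_of_mem ψ h, fv_of_mem ψ h', show (⟨_, h'⟩ : H) = ⟨k, hk⟩⁻¹ * ⟨_, h⟩ * ⟨k, hk⟩ from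
      Subtype.ext (by simp [mul_assoc]), map_mul, map_mul, map_inv, inv_mul_cancel_comm]
  · rw [fv, fv, dif_neg h, dif_neg fun h' => h ?_]
    simpa [mul_assoc] using mul_mem (mul_mem hk h') (inv_mem hk)

theorem fv_out (ψ : H →* A) (x g : G) : fv ψ x (g : G ⧸ H).out = fv ψ x g := by
  obtain ⟨k, hk⟩ := QuotientGroup.mk_out_eq_mul H g
  rw [hk, fv_mul ψ x g k.2]

variable [Finite G]

theorem transfer_eq_prod_fv (ψ : H →* A) {p : ℕ} [Fact p.Prime] {x : G} (hx : x ^ p = 1)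
    [Fintype (G ⧸ H)] : MonoidHom.transfer ψ x = ∏ q : G ⧸ H, fv ψ x q.out := by
  classical
  have := Fintype.ofFinite (Quotient (orbitRel (zpowers x) (G ⧸ H)))
  rw [MonoidHom.transfer_eq_prod_quotient_orbitRel_zpowers_quot,
    ← Finset.prod_fiberwise Finset.univ (Quotient.mk (orbitRel (zpowers x) (G ⧸ H)))]
  refine Finset.prod_congr rfl fun ω _ => ?_
  have h1 : ∀ q : G ⧸ H, x • q = q → ∀ q' ∈ orbit (zpowers x) q, q' = q := by
    rintro q hq _ ⟨⟨_, k, rfl⟩, rfl⟩
    exact (mem_stabilizer_iff.mp (zpow_mem (mem_stabilizer_iff.mpr hq) k))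
  have h2 : ∀ q : G ⧸ H, Quotient.mk (orbitRel (zpowers x) (G ⧸ H)) q = ω ↔
      q ∈ orbit (zpowers x) ω.out := fun q => by
    conv_lhs => rw [← Quotient.out_eq ω]
    rw [Quotient.eq, orbitRel_apply]
  by_cases h : x • ω.out = ω.out
  · rw [Finset.prod_eq_single ω.out (fun q hq hne => absurd (h1 _ h q ((h2 q).mp
      (Finset.mem_filter.mp hq).2)) hne) (fun hn => absurd (by simp) hn), fv_of_mem ψ (smul_fix_iff.mp h)]
    exact congrArg ψ (Subtype.ext (by
      simp only [Function.minimalPeriod_eq_one_iff_isFixedPt.mpr (show Function.IsFixedPt (x • ·) ω.out from h),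
        pow_one]))
  · have h3 : Function.minimalPeriod (x • ·) ω.out = p :=
      ((Nat.dvd_prime Fact.out).mp (Function.IsPeriodicPt.minimalPeriod_dvd (by
        simp [Function.IsPeriodicPt, Function.IsFixedPt, hx]))).resolve_left fun e =>
          h (Function.minimalPeriod_eq_one_iff_isFixedPt.mp e)
    rw [Finset.prod_eq_one, ← map_one ψ]
    · exact congrArg ψ (Subtype.ext (by simp [h3, hx]))
    · intro q hq
      refine dif_neg fun h4 => h ?_
      have h5 := smul_fix_iff.mpr h4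
      have h6 := h1 q h5 ω.out (mem_orbit_symm.mp ((h2 q).mp (Finset.mem_filter.mp hq).2))
      rwa [h6]

open Classical in
theorem transfer_fix (ψ : H →* A) {p : ℕ} [Fact p.Prime] (hA : ∀ a : A, a ^ p = 1) {x : G}
    (hx : x ^ p = 1) {R : Subgroup G} (hR : IsPGroup p R) (hc : ∀ r ∈ R, r * x = x * r)
    [Fintype (G ⧸ H)] :
    MonoidHom.transfer ψ x = ∏ q : G ⧸ H with ∀ r : R, r • q = q, fv ψ x q.out := by
  rw [transfer_eq_prod_fv ψ hx]
  refine prod_fixed hR (fun q : G ⧸ H => fv ψ x q.out) (fun r q => ?_) fun _ => hA _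
  have h1 : r • q = (((r : G) * q.out : G) : G ⧸ H) := by
    conv_lhs => rw [← QuotientGroup.out_eq' q]
    rfl
  have h2 : ((r : G) * q.out)⁻¹ * x * (r * q.out) = q.out⁻¹ * x * q.out := by
    rw [mul_assoc, ← mul_assoc x, ← hc r r.2]; group
  simp only [h1, fv_out]
  simp only [fv, h2]

/-- All fixed cosets give the same value. -/
theorem transfer_const (ψ : H →* A) {p : ℕ} [Fact p.Prime] (hA : ∀ a : A, a ^ p = 1) {x : G}
    (hx : x ^ p = 1) {R : Subgroup G} (hR : IsPGroup p R) (hxR : x ∈ R) (hc : ∀ r ∈ R, r * x = x * r)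
    {a : A} (h : ∀ g (hg : g⁻¹ * x * g ∈ H), (∀ r ∈ R, g⁻¹ * r * g ∈ H) → ψ ⟨_, hg⟩ = a) :
    MonoidHom.transfer ψ x = a ^ H.index := by
  classical
  have := Fintype.ofFinite (G ⧸ H)
  rw [transfer_fix ψ hA hx hR hc, index, Nat.card_eq_fintype_card, ← Finset.card_univ,
    ← Finset.prod_const, prod_fixed hR (fun _ => a) (fun _ _ => rfl) fun _ => hA _]
  refine Finset.prod_congr rfl fun q hq => ?_
  have h1 : ∀ r ∈ R, q.out⁻¹ * r * q.out ∈ H := fun r hr =>
    smul_fix_iff.mp ((Finset.mem_filter.mp hq).2 ⟨r, hr⟩)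
  rw [fv_of_mem ψ (h1 x hxR), h _ _ h1]

/-- Only the trivial coset contributes. -/
theorem transfer_single (ψ : H →* A) {p : ℕ} [Fact p.Prime] (hA : ∀ a : A, a ^ p = 1) {x : G}
    (hx : x ^ p = 1) {R : Subgroup G} (hR : IsPGroup p R) (hxR : x ∈ R) (hc : ∀ r ∈ R, r * x = x * r)
    (hRH : R ≤ H)
    (h : ∀ g (hg : g⁻¹ * x * g ∈ H), (∀ r ∈ R, g⁻¹ * r * g ∈ H) → ψ ⟨_, hg⟩ ≠ 1 → g ∈ H) :
    MonoidHom.transfer ψ x = ψ ⟨x, hRH hxR⟩ := by
  classical
  have := Fintype.ofFinite (G ⧸ H)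
  rw [transfer_fix ψ hA hx hR hc, Finset.prod_eq_single ((1 : G) : G ⧸ H), fv_out,
    fv_of_mem ψ (by simpa using hRH hxR)]
  · exact congrArg ψ (Subtype.ext (by simp))
  · intro q hq hne
    have h1 : ∀ r ∈ R, q.out⁻¹ * r * q.out ∈ H := fun r hr =>
      smul_fix_iff.mp ((Finset.mem_filter.mp hq).2 ⟨r, hr⟩)
    rw [fv_of_mem ψ (h1 x hxR)]
    by_contra h2
    refine hne ?_
    rw [← QuotientGroup.out_eq' q, QuotientGroup.eq]
    simpa using h _ _ h1 h2
  · intro hn
    refine absurd (Finset.mem_filter.mpr ⟨Finset.mem_univ _, fun r => ?_⟩) hn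
    change (((r : G) * 1 : G) : G ⧸ H) = _
    rw [QuotientGroup.eq]
    simpa using hRH r.2

omit [Finite G] in
theorem index_ker_prime (U : G →* A) {p : ℕ} (hp : p.Prime) (hA : Nat.card A = p) {x : G}
    (hx : U x ≠ 1) : U.ker.index = p := by
  have : Finite A := Nat.finite_of_card_ne_zero (hA ▸ hp.ne_zero)
  rw [index_ker]
  refine ((Nat.dvd_prime hp).mp (hA ▸ card_subgroup_dvd_card U.range)).resolve_left fun e => hx ?_
  rw [card_eq_one] at e
  exact mem_bot.mp (e ▸ ⟨x, rfl⟩)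

/-- The form used for the index two subgroup. -/
theorem exists_index_two_fix (ψ : H →* ℤˣ) {x : G} (hx : x * x = 1) {R : Subgroup G}
    (hR : IsPGroup 2 R) (hxR : x ∈ R) (hc : ∀ r ∈ R, r * x = x * r) (hRH : R ≤ H)
    (h1 : ψ ⟨x, hRH hxR⟩ ≠ 1)
    (h : ∀ g (hg : g⁻¹ * x * g ∈ H), (∀ r ∈ R, g⁻¹ * r * g ∈ H) → ψ ⟨_, hg⟩ ≠ 1 → g ∈ H) :
    ∃ N : Subgroup G, N.Normal ∧ N.index = 2 ∧ x ∉ N := by
  have : Fact (Nat.Prime 2) := ⟨Nat.prime_two⟩
  have h2 := transfer_single ψ (p := 2) (fun a => Int.units_sq a) (by rw [sq, hx]) hR hxR hc hRH h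
  rw [← h2] at h1
  exact ⟨_, inferInstance, index_ker_prime _ Nat.prime_two (by simp) h1, h1⟩

end Cfsg.Agent.O83
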